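/-
Fusion systems over `p`-groups of small nilpotency class: `℧ⁿ(Z(S))` is normal.
-/
import Mathlib
import Cfsg.Agent.FUS.FInduct2
import Cfsg.Agent.FUS.OpPrimeNormal

set_option autoImplicit false

namespace CL.Fus

open Cfsg Cfsg.FusionSystem
open scoped commutatorElement

section Ring

theorem exists_one_add_pow_prime {p : ℕ} (hp : p.Prime) :
    ∃ s : Polynomial ℤ, (1 + Polynomial.X) ^ p =
      1 + Polynomial.X ^ p + (p : Polynomial ℤ) * Polynomial.X * (1 + Polynomial.X * s) := by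
  obtain ⟨r, hr⟩ := exists_add_pow_prime_eq hp (1 : Polynomial ℤ) Polynomial.X
  have h1 := congrArg (fun q => Polynomial.coeff q 1) hr
  have h2 : (1 : ℕ) ≠ p := hp.one_lt.ne
  simp only [Polynomial.coeff_one_add_X_pow, Nat.choose_one_right, one_pow, mul_one, mul_assoc,
    Polynomial.coeff_add, Polynomial.coeff_one, Polynomial.coeff_X_pow, h2, one_ne_zero, if_false,
    Polynomial.coeff_natCast_mul, zero_add] at h1
  rw [show (1 : ℕ) = 0 + 1 from rfl, Polynomial.coeff_X_mul] at h1
  have h3 : r.coeff 0 = 1 := by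
    have : (p : ℤ) ≠ 0 := by exact_mod_cast hp.ne_zero
    exact (mul_left_cancel₀ this (by rw [← h1, mul_one])).symm
  refine ⟨r.divX, ?_⟩
  rw [hr, one_pow, mul_one, add_comm 1 (Polynomial.X * _), ← Polynomial.C_1, ← h3, Polynomial.X_mul_divX_add]

theorem natCast_pow_mul_eq_zero_comm {R : Type*} [CommRing R] {p : ℕ} (hp : p.Prime) {τ : R} {n : ℕ}
    (h1 : (1 + τ) ^ p = 1) (h2 : τ ^ (n * (p - 1) + 1) = 0) : (p : R) ^ n * τ = 0 := by
  obtain ⟨s, hs⟩ := exists_one_add_pow_prime hp
  have h3 := congrArg (Polynomial.aeval τ) hs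
  simp only [map_pow, map_add, map_one, Polynomial.aeval_X, map_mul, map_natCast, h1] at h3
  set u := 1 + τ * Polynomial.aeval τ s with hu
  have hu' : IsUnit u := IsNilpotent.isUnit_one_add (((Commute.all _ _).isNilpotent_mul_right ⟨_, h2⟩))
  obtain ⟨q, rfl⟩ : ∃ q, p = q + 1 := ⟨p - 1, (Nat.sub_add_cancel hp.one_le).symm⟩
  have key : ∀ k : ℕ, (((q + 1 : ℕ) : R) ^ k * τ) * u ^ k = (-1) ^ k * τ ^ (k * q + 1) := by
    intro k
    induction k with
    | zero => simp
    | succ k ih =>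
      have : ((q + 1 : ℕ) : R) * τ * u = - τ ^ (q + 1) := by linear_combination -h3
      calc _ = ((q + 1 : ℕ) : R) * u * (((q + 1 : ℕ) : R) ^ k * τ * u ^ k) := by ring
        _ = (-1) ^ k * τ ^ (k * q) * (((q + 1 : ℕ) : R) * τ * u) := by rw [ih]; ring
        _ = _ := by rw [this]; ring
  have := key n
  rw [Nat.add_sub_cancel] at h2
  rwa [h2, mul_zero, (hu'.pow n).mul_left_eq_zero] at this

theorem natCast_pow_mul_eq_zero {R : Type*} [Ring R] {p : ℕ} (hp : p.Prime) {τ : R} {n : ℕ}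
    (h1 : (1 + τ) ^ p = 1) (h2 : τ ^ (n * (p - 1) + 1) = 0) : (p : R) ^ n * τ = 0 := by
  let f := (Polynomial.aeval τ : Polynomial ℤ →ₐ[ℤ] R).toRingHom
  have hi := RingHom.kerLift_injective f
  have hx : f.kerLift (Ideal.Quotient.mk _ Polynomial.X) = τ := by
    rw [RingHom.kerLift_mk]; exact Polynomial.aeval_X τ
  have := natCast_pow_mul_eq_zero_comm (τ := Ideal.Quotient.mk (RingHom.ker f) Polynomial.X) (n := n) hp
    (hi (by rw [map_pow, map_add, map_one, hx, h1])) (hi (by rw [map_pow, hx, h2, map_zero]))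
  simpa [hx] using congrArg f.kerLift this

end Ring

section
variable {Ω : Type*} [Group Ω]

/-- An element whose `p`-th power centralizes the abelian group `V` centralizes `℧ⁿ(V)` if the class is small. -/
theorem commute_pow_of_lowerCentralSeries {p n : ℕ} (hp : p.Prime) {S V : Subgroup Ω} (hV : V ≤ S)
    (hc : V ≤ Subgroup.centralizer (V : Set Ω)) (hcl : S.lowerCentralSeries (n * (p - 1) + 1) = ⊥) {g : Ω}
    (hg : g ∈ S) (hn : g ∈ Subgroup.normalizer (V : Set Ω)) (hgp : g ^ p ∈ Subgroup.centralizer (V : Set Ω))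
    {v : Ω} (hv : v ∈ V) : cj g (v ^ p ^ n) = v ^ p ^ n := by
  let _ : CommGroup V := { (inferInstance : Group V) with
    mul_comm := fun a b => Subtype.ext (hc b.2 a a.2) }
  let σ : Module.End ℤ (Additive V) :=
    (MonoidHom.toAdditive (V.normalizerMonoidHom ⟨g, hn⟩).toMonoidHom).toIntLinearMap
  have hσ : ∀ x : Additive V, ((σ x).toMul : Ω) = g * x.toMul * g⁻¹ := fun _ => rfl
  have h1 : ∀ (k : ℕ) (x : Additive V), (((σ ^ k) x).toMul : Ω) = g ^ k * x.toMul * (g ^ k)⁻¹ := by
    intro k x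
    induction k with
    | zero => simp
    | succ k ih => rw [pow_succ', Module.End.mul_apply, hσ, ih]; group
  have h2 : ∀ (k : ℕ) (x : Additive V), ((((σ - 1) ^ k) x).toMul : Ω) ∈ S.lowerCentralSeries k := by
    intro k x
    induction k with
    | zero => exact hV x.toMul.2
    | succ k ih =>
      rw [pow_succ', Module.End.mul_apply, LinearMap.sub_apply, toMul_sub, Subgroup.coe_div, hσ,
        Subgroup.lowerCentralSeries_succ, Subgroup.commutator_comm, div_eq_mul_inv]
      exact Subgroup.commutator_mem_commutator hg ih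
  have := natCast_pow_mul_eq_zero (τ := σ - 1) (n := n) hp
    (LinearMap.ext fun x => Additive.toMul.injective (Subtype.ext (by
      rw [add_sub_cancel, h1, ← hgp _ x.toMul.2]; simp)))
    (LinearMap.ext fun x => Additive.toMul.injective (Subtype.ext (Subgroup.mem_bot.1 (hcl ▸ h2 _ x))))
  have h3 := congrArg (fun φ : Module.End ℤ (Additive V) => ((φ (Additive.ofMul ⟨v, hv⟩)).toMul : Ω)) this
  rw [← Nat.cast_pow, (Nat.cast_commute _ _).eq] at h3
  simp only [Module.End.mul_apply, Module.End.natCast_apply, LinearMap.sub_apply, toMul_sub, Subgroup.coe_div,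
    hσ, Module.End.one_apply, toMul_nsmul, toMul_ofMul, Subgroup.coe_pow, LinearMap.zero_apply, toMul_zero,
    Subgroup.coe_one] at h3
  exact div_eq_one.1 h3

theorem pow_mem_upperCentralSeries {m : ℕ} (h : ∀ z ∈ Subgroup.center Ω, z ^ m = 1) (i : ℕ) {x : Ω}
    (hx : x ∈ Subgroup.upperCentralSeries Ω (i + 1)) : x ^ m ∈ Subgroup.upperCentralSeries Ω i := by
  induction i generalizing x with
  | zero => simpa using h x (by simpa using hx)
  | succ i ih =>
    rw [Subgroup.mem_upperCentralSeries_succ_iff] at hx ⊢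
    intro y
    have h1 := ih (hx y)
    have h2 := Subgroup.mem_upperCentralSeries_succ_iff.1 (hx y)
    rw [← QuotientGroup.eq_one_iff] at h1 ⊢
    have h3 : Commute (((x * y * x⁻¹ * y⁻¹ : Ω) : Ω ⧸ Subgroup.upperCentralSeries Ω i)) x := by
      rw [← commutatorElement_eq_one_iff_commute]
      exact (QuotientGroup.eq_one_iff _).2 (h2 x)
    have h4 : ∀ a b : Ω ⧸ Subgroup.upperCentralSeries Ω i, Commute (a * b * a⁻¹ * b⁻¹) a →
        a ^ m * b * (a ^ m)⁻¹ * b⁻¹ = (a * b * a⁻¹ * b⁻¹) ^ m := fun a b hc => by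
      have : b * a⁻¹ * b⁻¹ = a⁻¹ * (a * b * a⁻¹ * b⁻¹) := by group
      calc _ = a ^ m * (b * a⁻¹ * b⁻¹) ^ m := by rw [conj_pow]; group
        _ = _ := by rw [this, hc.symm.inv_left.mul_pow]; group
    exact (h4 x y h3).trans h1

theorem pow_eq_one_of_upperCentralSeries {m : ℕ} (h : ∀ z ∈ Subgroup.center Ω, z ^ m = 1) (i : ℕ) {x : Ω}
    (hx : x ∈ Subgroup.upperCentralSeries Ω i) : x ^ m ^ i = 1 := by
  induction i generalizing x with
  | zero => simpa using hx
  | succ i ih => rw [pow_succ', pow_mul, ih (pow_mem_upperCentralSeries h i hx)]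

end

variable {Ω : Type*} [Group Ω] {S : Subgroup Ω} [Finite S] {F : FusionSystem S} {p : ℕ} [Fact p.Prime]

theorem autGroup_le_extAut_sup_inf (hS : IsPGroup p S) (hF : F.IsSaturated p) {P : Subgroup Ω}
    (hP : F.IsEssential p P) {K : Subgroup (MulAut P)}
    (hn : F.autGroup P ≤ Subgroup.normalizer (K : Set (MulAut P))) (hlt : Inn P < autInducedBy S P ⊓ K) :
    F.autGroup P ≤ extAut F P ⊔ F.autGroup P ⊓ K := by
  have := finite_of_le hP.1.1
  intro α hα
  obtain ⟨c, hc, h⟩ := (sylIn_inf_of_normal hS hF hP.2.1 hn).frattini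
    (Subgroup.inf_normalizer_le_normalizer_inf ⟨Subgroup.le_normalizer hα, hn hα⟩)
  have h3 : c * α ∈ extAut F P := (relSPE_extAut_of_essential hS hF hP).2.2 _ hlt inf_le_left
    ⟨Subgroup.mul_mem _ hc.1 hα, h⟩
  have := Subgroup.mul_mem _ (Subgroup.mem_sup_right (S := extAut F P) (Subgroup.inv_mem _ hc))
    (Subgroup.mem_sup_left h3)
  rwa [inv_mul_cancel_left] at this

theorem normal_agemo_center (hS : IsPGroup p S) (hF : F.IsSaturated p) {n : ℕ}
    (hcl : S.lowerCentralSeries (n * (p - 1) + 1) = ⊥) :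
    F.IsNormal (powerClosure p n (centralizerIn S S)) := by
  have hW : powerClosure p n (centralizerIn S S) ≤ S := (powerClosure_le _).trans (centralizerIn_le _ _)
  have himg : ∀ {P : Subgroup Ω} (α : MulAut P), img (autFun α) (powerClosure p n (centralizerIn P P)) =
      powerClosure p n (centralizerIn P P) := fun {P} α => by
    rw [((isHomOn_autFun α).mono (centralizerIn_le _ _)).img_powerClosure,
      (isoOn_autFun α).img_centralizerIn le_rfl le_rfl, img_autFun]
  have hWn : S ≤ Subgroup.normalizer ((powerClosure p n (centralizerIn S S) : Subgroup Ω) : Set Ω) :=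
    fun x hx => Subgroup.centralizer_le_normalizer _ fun y hy => ((powerClosure_le _ hy).2 x hx).symm
  refine normal_of_isSubsystemOf_normSys (hY := hW) (alperin_gen hS hF (fun f hf => ?_) fun P hP => ?_)
  · obtain ⟨α, -, e⟩ := hf.exists_aut hf.img_top
    exact mor_normSys.2 ((nMor_iff_of_le hW (le_inf le_rfl hWn)).2 ⟨hf, by
      rw [← img_congr (e.mono hW), himg]⟩)
  have hPS := hP.1.1
  have hc : centralizerIn S P ≤ P := centralizerIn_le_of_isCentric hP.1
  have hZ : centralizerIn S S ≤ centralizerIn P P := fun x hx =>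
    ⟨hc ⟨hx.1, fun y hy => hx.2 y (hPS hy)⟩, fun y hy => hx.2 y (hPS hy)⟩
  have hV : powerClosure p n (centralizerIn P P) ≤ P := (powerClosure_le _).trans (centralizerIn_le _ _)
  refine (autGroup_le_extAut_sup_inf hS hF hP (K := preAut P hV ⊥) (fun α hα => ?_) ?_).trans
    (sup_le_sup_left (fun α hα => ?_) _)
  · have := finite_mulAut hPS
    refine mem_normalizer_of_cj_mem fun β hβ => mem_preAut_bot.2 fun x hx => ?_
    have h1 : autFun α⁻¹ x ∈ powerClosure p n (centralizerIn P P) := himg α⁻¹ ▸ mem_img_of_mem _ hx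
    rw [cj, autFun_mul _ _ (hV hx), autFun_mul _ _ (hV h1), mem_preAut_bot.1 hβ _ h1,
      autFun_autFun_inv _ (hV hx)]
  · obtain ⟨x, hx, hxP⟩ := SetLike.exists_of_lt (lt_normalizerIn hS (lt_of_essential hS hF hP))
    obtain ⟨k, hk⟩ := hS ⟨x, hx.1⟩
    replace hk : x ^ p ^ k = 1 := congrArg Subtype.val hk
    obtain ⟨g, hg, hgP, hgp⟩ : ∃ g ∈ normalizerIn S P, g ∉ P ∧ g ^ p ∈ P := by
      by_contra hcon
      push Not at hcon
      suffices ∀ j, x ^ p ^ j ∉ P from this k (hk ▸ P.one_mem)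
      intro j
      induction j with
      | zero => simpa using hxP
      | succ j ih => rw [pow_succ, pow_mul]; exact hcon _ (Subgroup.pow_mem _ hx _) ih
    refine lt_of_le_of_ne (le_inf (inn_le_autInducedBy hPS) fun α hα => ?_) fun e => hgP ?_
    · obtain ⟨y, hy, e⟩ := mem_inn_iff.1 hα
      exact mem_preAut_bot.2 fun x hx => by
        rw [e (hV hx), cj_eq_self_iff]; exact (powerClosure_le _ hx).2 y hy
    · rw [← cjAut_mem_inn_iff hPS hc hg.1 hg.2, e]
      refine ⟨mem_autInducedBy_iff.2 ⟨g, hg.1, autFun_cjAut hg.2⟩, mem_preAut_bot.2 fun x hx => ?_⟩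
      rw [autFun_cjAut hg.2 (hV hx)]
      refine (isHomOn_cj _ g).eqOn_closure (isHomOn_id _) ?_ hx
      rintro _ ⟨v, hv, rfl⟩
      exact commute_pow_of_lowerCentralSeries Fact.out ((centralizerIn_le _ _).trans hPS)
        (fun a ha b hb => ha.2 b hb.1) hcl hg.1 
        (mem_normalizer_iff_img_cj.2 (by rw [(isoOn_cj g P).img_centralizerIn le_rfl le_rfl,
          mem_normalizer_iff_img_cj.1 hg.2]))
        (fun b hb => (hb.2 _ hgp).symm) hv
  · have hWP := powerClosure_mono (p := p) (n := n) hZ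
    refine (mem_autGroup_iff (le_inf hPS (hPS.trans hWn))).2 (mor_normSys.2
      ((nMor_iff_of_le (hWP.trans hV) (le_inf hPS (hPS.trans hWn))).2 ⟨mor_autFun hPS hα.1, ?_⟩))
    rw [img_congr (g := id) fun x hx => mem_preAut_bot.1 hα.2 x (hWP hx), img_id]

theorem exponent_dvd_of_core_eq_bot (hS : IsPGroup p S) (hF : F.IsSaturated p) {n : ℕ}
    (hcl : S.lowerCentralSeries (n * (p - 1) + 1) = ⊥) (hcore : F.core = ⊥) :
    Monoid.exponent S ∣ p ^ (n ^ 2 * (p - 1) + n) := by
  have h1 := le_core (normal_agemo_center hS hF hcl)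
  rw [hcore, powerClosure_le_iff] at h1
  rw [← Subgroup.top_subtype_lowerCentralSeries, Subgroup.map_eq_bot_iff_of_injective _ S.subtype_injective,
    Subgroup.lowerCentralSeries_eq_bot_iff_upperCentralSeries_eq_top] at hcl
  refine Monoid.exponent_dvd_of_forall_pow_eq_one fun x => ?_
  have := pow_eq_one_of_upperCentralSeries (m := p ^ n) (fun z hz => Subtype.ext (h1 z ⟨z.2, fun y hy =>
    congrArg Subtype.val (Subgroup.mem_center_iff.1 hz ⟨y, hy⟩)⟩)) _ (hcl ▸ Subgroup.mem_top x)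
  rwa [← pow_mul, show n * (n * (p - 1) + 1) = n ^ 2 * (p - 1) + n by ring] at this

end CL.Fus
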