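/-
`E`-balance and the dichotomy between characteristic `p`-type and component type.
-/
import Cfsg.Agent.FUS.Component

set_option autoImplicit false

namespace CL.Fus

open Cfsg Cfsg.FusionSystem

variable {Ω : Type*} [Group Ω] {S T U V X Y R : Subgroup Ω} {F : FusionSystem S} {p : ℕ} {E : FusionSystem T}
  {D : FusionSystem U} {C : FusionSystem V}

theorem corr_centSys_normSys {hX : X ≤ S} (hXY : X ≤ Y) (hY : Y ≤ normalizerIn S X) :
    Corr id id (centSys (normSys F X hX) Y hY) (centSys F Y (hY.trans inf_le_left)) :=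
  corr_id_of_isSubsystemOf
    (isSubsystemOf_iff.2 fun _ _ hf => mor_centSys.2 ((mor_centSys.1 hf).of_subsystem normSys_isSubsystemOf))
    (isSubsystemOf_iff.2 fun P f hf => by
      obtain ⟨h1, g, h2, h3, h4⟩ := mor_centSys.1 hf
      have h5 : P ≤ normalizerIn S X := (h1.trans (centralizerIn_anti S hXY)).trans (centralizerIn_le_normalizerIn S X)
      exact mor_centSys.2 ⟨fun x hx => ⟨h5 hx, (h1 hx).2⟩, g, (mor_normSys_of_le (hXY.trans le_sup_right)
        (sup_le h5 hY)).2 ⟨h2, img_eq_self_of_eqOn fun x hx => h4 x (hXY hx)⟩, h3, h4⟩)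

theorem corr_centSys_centSys {hX : X ≤ S} (hXY : X ≤ Y) (hY : Y ≤ centralizerIn S X) :
    Corr id id (centSys (centSys F X hX) Y hY) (centSys F Y (hY.trans inf_le_left)) :=
  corr_id_of_isSubsystemOf
    (isSubsystemOf_iff.2 fun _ _ hf => mor_centSys.2 ((mor_centSys.1 hf).of_subsystem centSys_isSubsystemOf))
    (isSubsystemOf_iff.2 fun P f hf => by
      obtain ⟨h1, g, h2, h3, h4⟩ := mor_centSys.1 hf
      have h5 : P ≤ centralizerIn S X := h1.trans (centralizerIn_anti S hXY)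
      exact mor_centSys.2 ⟨fun x hx => ⟨h5 hx, (h1 hx).2⟩, g, mor_centSys.2 (CMor.of_ext (sup_le h5 hY) h2 le_rfl
        (hXY.trans le_sup_right) fun x hx => h4 x (hXY hx)), h3, h4⟩)

variable [Finite S]

/-- A map defined on `X C_S(X)` with `X` fully centralized induces an isomorphism of centralizer systems. -/
theorem exists_corr_centSys_of_mor (hX : F.IsFullyCentralized X) {φ : Ω → Ω} (hφ : Mor F (X ⊔ centralizerIn S X) φ) :
    ∃ φ', Corr φ φ' (centSys F X hX.1) (centSys F (img φ X) (hφ.mono le_sup_left).img_le) := by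
  obtain ⟨φ', hφ', e1, k1, k2⟩ := hφ.exists_inv' rfl
  have e2 := hφ.img_centralizerIn_eq hX le_sup_left le_sup_right
  have h1 : centralizerIn S (img φ X) ≤ img φ (X ⊔ centralizerIn S X) := e2.ge.trans (img_mono φ le_sup_right)
  have h2 : img φ X ≤ img φ (X ⊔ centralizerIn S X) := img_mono φ le_sup_left
  have e3 : img φ' (img φ X) = X := by
    rw [← (hφ.mono le_sup_left).isHomOn.img_comp]
    exact img_eq_self_of_eqOn fun x hx => k1 x (Subgroup.mem_sup_left hx)
  refine ⟨φ', ⟨(hφ.mono le_sup_right).isHomOn, fun x hx => e2.le (mem_img_of_mem φ hx), fun y hy => ?_,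
    fun x hx => k1 x (Subgroup.mem_sup_right hx), fun y hy => k2 y (h1 hy)⟩, fun hf => mor_centSys.2 ?_,
    fun hf => mor_centSys.2 ?_⟩
  · simpa only [e3] using hφ'.map_mem_centralizerIn h2 (h1 hy) hy.2
  · exact (sInv_refl F).cMor (mor_centSys.1 hf) hφ (hf.le.trans le_sup_right) le_sup_left
      (fun x hx => Subgroup.mem_sup_right (hf.map_mem hx)) fun x hx => by
        rw [Function.comp_apply, Function.comp_apply, k1 x (Subgroup.mem_sup_right (hf.le hx))]
  · have := (sInv_refl F).cMor (mor_centSys.1 hf) hφ' (hf.le.trans h1) h2 (fun x hx => h1 (hf.map_mem hx))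
      (g := φ' ∘ _ ∘ φ) fun x hx => by rw [Function.comp_apply, Function.comp_apply, k2 x (h1 (hf.le hx))]
    rwa [e3] at this

variable [Fact p.Prime] (hS : IsPGroup p S)
include hS

theorem centSys_isNormalIn_normSys (hF : F.IsSaturated p) (hX : F.IsFullyNormalized X) :
    (centSys F X hX.1).IsNormalIn (normSys F X hX.1) p :=
  have := finite_of_le (normalizerIn_le S X)
  (Corr.refl _).isNormalIn (corr_centSys_normSys le_rfl (le_normalizerIn hX.1))
    (centSys_isNormalIn (hS.to_le (normalizerIn_le S X)) (normSys_saturated hS hF hX) (normal_normSys hX.1))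

theorem img_sup_eq_of_sc (hF : F.IsSaturated p) (hT : F.StronglyClosed T) {f : Ω → Ω} (hf : Mor F X f)
    (h : img f X ≤ T ⊔ X) : T ⊔ img f X = T ⊔ X := by
  obtain ⟨g, hg, e⟩ := exists_extend_mod_sc hS hF hT hf
  have e1 := sc_img_eq hT hg le_sup_right
  refine eq_of_le_of_card_ge (sup_le le_sup_left h) (sup_le hT.1 hf.le) ?_
  rw [sup_comm T X, ← hg.card_img]
  refine card_le_of_le ?_ (sup_le hT.1 hf.img_le)
  rw [hg.img_sup le_sup_left le_sup_right, e1]
  refine sup_le (img_le_iff.2 fun x hx => ?_) le_sup_left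
  rw [← mul_inv_cancel_right (g x) ((g x)⁻¹ * f x), mul_inv_cancel_left]
  exact Subgroup.mul_mem _ (Subgroup.mem_sup_right (mem_img_of_mem f hx)) (Subgroup.mem_sup_left (T.inv_mem (e x hx)))

omit hS [Finite S] [Fact p.Prime] in
theorem map_mem_normalizerIn_sup (hT : F.StronglyClosed T) {P X' : Subgroup Ω} {g : Ω → Ω} (hg : Mor F P g)
    (hX : X ≤ P) (e : img g X = X') {x : Ω} (hx : x ∈ P) (hx' : x ∈ normalizerIn (T ⊔ X) X) :
    g x ∈ normalizerIn (T ⊔ X') X' := by
  refine ⟨?_, e ▸ hg.map_mem_normalizer hX hx hx'.2⟩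
  obtain ⟨t, ht, y, hy, rfl⟩ := exists_mul_of_mem_sup_right ((hX.trans hg.le).trans (sc_le_normalizer hT)) hx'.1
  have ht' : t ∈ P := (Subgroup.mul_mem_cancel_right _ (hX hy)).1 hx
  rw [hg.map_mul ht' (hX hy)]
  exact Subgroup.mul_mem_sup (sc_map_mem hT hg ht' ht) (e ▸ mem_img_of_mem g hy)

theorem autGroup_le_fusAut_mulSys (hE : E.IsNormalIn F p) (hR : R ≤ S) (hTR : T ≤ R) :
    F.autGroup R ≤ fusAut (mulSys hS hE R hR) := fun α hα => by
  obtain ⟨D, c⟩ := (isoOn_autFun α).exists_corr (mulSys hS hE R hR)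
  have e := eq_mulSys_of_pPower hS hE hR (c.isSaturated (mulSys_saturated hS hE hR hTR))
    (isSubsystemOf_of_corr_mor c (mulSys_isSubsystemOf hS hE hR) (mor_autFun hR hα))
    (c.hasPPowerIndexIn (corr_autFun_of_invariant hE.1.2.2 hTR hR hα) (hasPPowerIndexIn_mulSys hS hE hR hTR))
  rwa [e] at c

theorem fullyNormalized_mulSys (hE : E.IsNormalIn F p) (hX : F.IsFullyNormalized X) (hR : T ⊔ X ≤ S) :
    (mulSys hS hE (T ⊔ X) hR).IsFullyNormalized X := by
  have hT := hE.1.2.2.2.1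
  refine ⟨le_sup_right, fun X' hc => ?_⟩
  obtain ⟨f, hf, rfl⟩ := isConj_iff.1 hc
  have hf' := hf.of_subsystem (mulSys_isSubsystemOf hS hE hR)
  obtain ⟨ψ, hψ, e⟩ := exists_mor_normalizer_of_fullyNormalized hS hE.1.2.1 hX (isConj_symm hf'.isConj)
  have h1 : normalizerIn (T ⊔ X) (img f X) ≤ normalizerIn S (img f X) := normalizerIn_mono_left hR _
  rw [← (hψ.mono h1).card_img]
  refine card_le_of_le (img_le_iff.2 fun x hx => map_mem_normalizerIn_sup hT hψ (le_normalizerIn hf'.img_le) e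
    (h1 hx) ?_) ((normalizerIn_le _ _).trans hR)
  rwa [img_sup_eq_of_sc hS hE.1.2.1 hT hf' hf.img_le]

/-- `N_{EX}(X)` is weakly normal in `N_F(X)`. -/
theorem normSys_mulSys_isWeaklyNormalIn (hE : E.IsNormalIn F p) (hX : F.IsFullyNormalized X) (hR : T ⊔ X ≤ S) :
    (normSys (mulSys hS hE (T ⊔ X) hR) X le_sup_right).IsWeaklyNormalIn (normSys F X hX.1) p := by
  have hT := hE.1.2.2.2.1
  have := finite_of_le hR
  have := finite_of_le (normalizerIn_le S X)
  have hDF := mulSys_isSubsystemOf hS hE hR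
  have hN := normSys_saturated hS hE.1.2.1 hX
  have h1 : normalizerIn (T ⊔ X) X ≤ normalizerIn S X := normalizerIn_mono_left hR _
  have hsc : (normSys F X hX.1).StronglyClosed (normalizerIn (T ⊔ X) X) := stronglyClosed_iff.2 ⟨h1,
    fun P f hf x hx hx' => by
      obtain ⟨-, g, k1, k2, k3⟩ := mor_normSys.1 hf
      exact k2 hx ▸ map_mem_normalizerIn_sup hT k1 le_sup_right k3 (Subgroup.mem_sup_left hx) hx'⟩
  refine ⟨normSys_saturated (hS.to_le hR) (mulSys_saturated hS hE hR le_sup_left) (fullyNormalized_mulSys hS hE hX hR),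
    hN, SInv.isInvariantIn (fun P Q f ψ g hf hψ hP hm e => ?_) (hS.to_le (normalizerIn_le S X)) hN
      (isSubsystemOf_iff.2 fun P f hf => ?_) hsc⟩
  · obtain ⟨k0, f₁, k1, k2, k3⟩ := mor_normSys.1 hf
    obtain ⟨-, ψ₁, l1, l2, l3⟩ := mor_normSys.1 hψ
    have i1 : P ⊔ X ≤ (Q ⊔ X) ⊓ (T ⊔ X) := le_inf (sup_le_sup_right hP _) k1.le
    have m0 : img f₁ (P ⊔ X) ≤ Q ⊔ X := by
      rw [k1.img_sup le_sup_left le_sup_right, k3]
      exact sup_le_sup_right (img_le_iff.2 fun x hx => k2 hx ▸ hm x hx) _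
    have m : ∀ x ∈ P ⊔ X, f₁ x ∈ (Q ⊔ X) ⊓ (T ⊔ X) := fun x hx => ⟨m0 (mem_img_of_mem f₁ hx), k1.map_mem hx⟩
    obtain ⟨θ, a, a1, a2, a3, a4⟩ := exists_strong_frattini hS hE hR le_sup_left inf_le_right
      (l1.mono (inf_le_left : (Q ⊔ X) ⊓ (T ⊔ X) ≤ _))
    have i2 : X ≤ (Q ⊔ X) ⊓ (T ⊔ X) := le_sup_right.trans i1
    have e1 : (Q ⊔ X) ⊓ (T ⊔ X) ⊔ T = T ⊔ X :=
      le_antisymm (sup_le inf_le_right le_sup_left) (sup_le le_sup_right (i2.trans le_sup_left))
    rw [e1] at a3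
    obtain ⟨α, hα, eα⟩ := a3.exists_aut (a3.img_eq_self (by
      rw [← img_le_iff, sup_comm T X, ← (a2.mono i2).sup_eq, a3.img_sup (a1.mono i2).img_le le_sup_left,
        sc_img_eq hT a3 le_sup_left, (a2.mono i2).sup_eq, ← (a1.mono i2).isHomOn.img_comp,
        img_congr (f := a ∘ θ) (g := ψ₁) fun x hx => (a4 x (i2 hx)).symm, l3]))
    obtain ⟨g₁, e₁⟩ := a1.exists_conj f₁
    obtain ⟨g₂, e₂⟩ := l1.exists_conj f₁
    have e₃ : ∀ x ∈ (Q ⊔ X) ⊓ (T ⊔ X), ψ₁ x = autFun α (θ x) := fun x hx => by rw [a4 x hx, eα (a1.map_mem hx)]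
    have b1 := fusAut_mor (autGroup_le_fusAut_mulSys hS hE hR le_sup_left hα) (g := g₂)
      (sInv_refl _ k1 a1 i1 m fun x hx => e₁ x (i1 hx)) fun y hy => by
        obtain ⟨x, hx, rfl⟩ := (a1.mono i1).mem_img.1 hy
        rw [e₁ x (i1 hx), ← e₃ x (i1 hx), ← e₃ _ (m x hx), e₂ x (i1 hx).1]
    rw [← (a1.mono i1).isHomOn.img_comp, img_congr (f := autFun α ∘ θ) (g := ψ₁) fun x hx => (e₃ x (i1 hx)).symm,
      l1.img_sup (hP.trans le_sup_left) le_sup_right, l3, img_congr (l2.mono hP)] at b1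
    refine mor_normSys.2 ⟨sc_img_le hsc (hψ.mono hP) k0, g₂, b1, fun y hy => ?_, ?_⟩
    · obtain ⟨x, hx, rfl⟩ := (hψ.mono hP).mem_img.1 hy
      rw [e x hx, ← l2 (hP hx), e₂ x (Subgroup.mem_sup_left (hP hx)), k2 hx, l2 (hm x hx)]
    · refine b1.img_eq_self_of_le le_sup_right fun y hy => ?_
      obtain ⟨x, hx, rfl⟩ := (l1.mono le_sup_right).mem_img.1 (l3.ge hy)
      rw [e₂ x (Subgroup.mem_sup_right hx)]
      exact l3.le (mem_img_of_mem ψ₁ (k3.le (mem_img_of_mem f₁ hx)))
  · obtain ⟨k0, g, k1, k2⟩ := mor_normSys.1 hf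
    exact mor_normSys.2 ⟨k0.trans h1, g, k1.of_subsystem hDF, k2⟩

omit hS in
theorem CP.hasPPowerIndexIn_of_inner {Q : Subgroup Ω} [Finite U] (hQ : IsPGroup p Q)
    (h : CP (innerFusionSystem Q) E D) : E.HasPPowerIndexIn D p :=
  hasPPowerIndexIn_iff.2 ⟨h.right_isSubsystemOf, by
    rw [h.hyperfocal_eq, hyperfocal_inner_eq_bot hQ, bot_sup_eq]; exact hyperfocal_le _ _,
    fun P hP => (Oup_le _ _).trans (h.autGroup_right hP).le⟩

theorem IsLayer.exists_normal_normSys (hE : E.IsLayerOf F p) (h : CP (innerFusionSystem F.core) E D)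
    (hX : F.IsFullyNormalized X) : ∃ W : FusionSystem (normalizerIn (U ⊔ X) X), W.IsNormalIn (normSys F X hX.1) p ∧
      ∀ (V : Subgroup Ω) (C : FusionSystem V), C.IsSaturated p → C.hyperfocalSubgroup p = V → C.IsSubsystemOf W →
        C.IsSubsystemOf E := by
  have hD := IsLayer.fitting_isNormalIn hS hE h
  have hU := hD.1.2.2.2.1.1
  have hR : U ⊔ X ≤ S := sup_le hU hX.1
  have := finite_of_le (normalizerIn_le S X)
  have := finite_of_le hU
  obtain ⟨W, h1, h2⟩ := exists_isNormalIn_of_weaklyNormal (hS.to_le (normalizerIn_le S X))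
    (normSys_mulSys_isWeaklyNormalIn hS hD hX hR)
  refine ⟨W, h1, fun V C h3 h4 h5 => ?_⟩
  have h6 := isSubsystemOf_trans h5 (isSubsystemOf_trans h2.1.2.2.1 normSys_isSubsystemOf)
  have hV := (le_of_isSubsystemOf h6).trans hR
  have := finite_of_le hV
  exact isSubsystemOf_isPResidual_of_perfect (hS.to_le hV) h3 (isSubsystemOf_isPResidual_of_perfect (hS.to_le hV) h3 h6
    h4 (hasPPowerIndexIn_mulSys hS hD hR le_sup_left)) h4 (h.hasPPowerIndexIn_of_inner (hS.to_le (core_normal F).1))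

/-- A component centralizing the Sylow subgroup of a normal subsystem is a component of its centralizer. -/
theorem IsComp.centSys (hC : C.IsComponentIn F p) (hE : E.IsNormalIn F p) (h : CentIn C F T) :
    C.IsComponentIn (centSys F T hE.1.2.2.2.1.1) p := by
  obtain ⟨Z, h1, h2⟩ := exists_cSys hS hE
  have := finite_of_le (centralizerIn_le S T)
  exact isComponentIn_of_isNormalIn (isComponentIn_of_le hS hC h1
    (le_of_isSubsystemOf (h.isSubsystemOf_cSys hS hE h2 hC.2.1 hC.2.2.1))) (isNormalIn_of_pPower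
      (hS.to_le (centralizerIn_le S T)) (centSys_saturated_of_isNormalIn hS hE) h1.1.1 h2
      ((centralizerIn_le S T).trans (sc_le_normalizer h1.1.2.2.2.1)))

theorem IsLayer.le_of_component_normSys (hE : E.IsLayerOf F p) (hX : F.IsFullyNormalized X)
    (hC : C.IsComponentIn (normSys F X hX.1) p) : V ≤ T := by
  have hF := hE.1.1.2.1
  obtain ⟨D, h, hD⟩ := IsLayer.exists_fitting hS hE
  set U := F.core ⊔ T
  have hU := hD.1.2.2.2.1.1
  refine induction_lt (S := S) (motive := fun X => ∀ (hX : F.IsFullyNormalized X) (V : Subgroup Ω) (C : FusionSystem V),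
    C.IsComponentIn (normSys F X hX.1) p → V ≤ T) (fun X _ ih hX V C hC => ?_) X hX.1 hX V C hC
  have hN := normalizerIn_le S X
  have := finite_of_le hN
  obtain ⟨W, h1, h2⟩ := IsLayer.exists_normal_normSys hS hE h hX
  rcases subnormal_or_centIn (hS.to_le hN) hC h1 with h3 | h3
  · exact le_of_isSubsystemOf (h2 V C hC.2.1 hC.2.2.1 (isSubsystemOf_of_isSubnormalIn h3))
  exfalso
  have hR : U ⊔ X ≤ S := sup_le hU hX.1
  have hXY : X ≤ normalizerIn (U ⊔ X) X := le_normalizerIn le_sup_right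
  have hY := h1.1.2.2.2.1
  rcases (le_sup_right : X ≤ U ⊔ X).eq_or_lt with h4 | h4
  · have h5 := (h3.of_subsystem normSys_isSubsystemOf).anti ((le_sup_left.trans h4.ge).trans hXY)
    refine IsComp.not_centIn (hS.to_le hN) hC h5 ?_
    rw [← hC.2.2.1]
    exact ((hyperfocal_mono (h5.isSubsystemOf hU)).trans (hyperfocal_le_focal _ p)).trans
      ((focal_centSys_le_cS hS hD).trans ((IsLayer.cS_fitting_le hS hE h).trans le_sup_left))
  have := finite_of_le hR
  have h5 := lt_normalizerIn (hS.to_le hR) h4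
  have h6 : T ⊓ normalizerIn S X ≤ normalizerIn (U ⊔ X) X := fun x hx =>
    ⟨Subgroup.mem_sup_left (Subgroup.mem_sup_right hx.1), hx.2.2⟩
  generalize normalizerIn (U ⊔ X) X = Y at W h1 h2 h3 hXY hY h5 h6
  have hYS := hY.1.trans hN
  have hc : F.IsFullyCentralized Y := fullyCentralized_of_normSys hS hF hX hXY
    (fullyCentralized_of_receptive (receptive_of_sc (hS.to_le hN) h1.1.2.1 hY))
  have := finite_of_le (centralizerIn_le (normalizerIn S X) Y)
  obtain ⟨C₁, -, k1⟩ := (corr_centSys_normSys hXY hY.1).exists_component (IsComp.centSys (hS.to_le hN) hC h1 h3)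
  obtain ⟨φ, hφ, k2⟩ := exists_mor_normalizer_fullyNormalized hS hF hYS
  have i1 : Y ⊔ centralizerIn S Y ≤ normalizerIn S Y :=
    sup_le (le_normalizerIn hYS) (centralizerIn_le_normalizerIn S Y)
  obtain ⟨φ', k3⟩ := exists_corr_centSys_of_mor hc (hφ.mono i1)
  have := finite_of_le (centralizerIn_le S Y)
  obtain ⟨C₂, -, k4⟩ := k3.exists_component k1
  have := finite_of_le (normalizerIn_le S (img φ Y))
  have k5 := ih _ k2.1 (by
    rw [(hφ.mono (le_sup_left.trans i1)).card_img]; exact card_lt_of_lt h5 hYS) k2 _ C₂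
    (isComponentIn_of_isNormalIn k4 (centSys_isNormalIn_normSys hS hF k2))
  rw [img_id] at k5
  refine IsComp.not_centIn (hS.to_le hN) hC h3 fun x hx => h6 ⟨?_, IsComp.le hC hx⟩
  exact (sc_map_mem_iff hE.1.1.2.2.2.1 hφ (centralizerIn_le_normalizerIn S Y ⟨hN (h3.le hx).1, (h3.le hx).2⟩)).1
    (k5 (mem_img_of_mem φ hx))

/-- `E`-balance. -/
theorem IsLayer.isSubsystemOf_of_normSys (hE : E.IsLayerOf F p) (hX : F.IsFullyNormalized X)
    (hC : C.IsLayerOf (normSys F X hX.1) p) : C.IsSubsystemOf E := by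
  obtain ⟨D, h, -⟩ := IsLayer.exists_fitting hS hE
  have hN := normalizerIn_le S X
  have := finite_of_le hN
  obtain ⟨W, h1, h2⟩ := IsLayer.exists_normal_normSys hS hE h hX
  refine h2 V C hC.1.1.1 (IsLayer.hyperfocal_eq (hS.to_le hN) hC) (hC.2.2 _ W h1 fun V' C' hC' => ?_)
  exact IsComp.isSubsystemOf (isComponentIn_of_le (hS.to_le hN) hC' h1
    fun x hx => ⟨Subgroup.mem_sup_left (Subgroup.mem_sup_right (IsLayer.le_of_component_normSys hS hE hX hC' hx)),
      (IsComp.le hC' hx).2⟩)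

theorem exists_isComponentIn_of_normSys (hF : F.IsSaturated p) (hX : F.IsFullyNormalized X)
    (hC : C.IsComponentIn (normSys F X hX.1) p) : ∃ (V : Subgroup Ω) (C : FusionSystem V), C.IsComponentIn F p := by
  by_contra h
  obtain ⟨T, E, hE⟩ := exists_isLayerOf hS hF
  have h1 := IsLayer.le_of_component_normSys hS hE hX hC
  rw [(IsLayer.eq_bot_iff hS hE).2 ((isConstrained_iff_not_exists_isComponentIn hS hF).2 h)] at h1
  have := finite_of_le (h1.trans (bot_le (a := S)))
  refine not_le_centralizer_of_quasisimple (hS.to_le (h1.trans bot_le)) hC.2 fun x hx => ?_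
  rw [Subgroup.mem_bot.1 (h1 hx)]
  exact Subgroup.one_mem _

theorem isOfCharacteristicPType_or_isOfComponentType (hF : F.IsSaturated p) :
    F.IsOfCharacteristicPType p ∨ F.IsOfComponentType p := by
  refine or_iff_not_imp_left.2 fun h => ?_
  simp only [IsOfCharacteristicPType, not_forall] at h
  obtain ⟨U, h0, hU, N, hN, h⟩ := h
  obtain rfl := eq_normSys hN hU.1
  have hNS := normalizerIn_le S U
  have := finite_of_le hNS
  have hs := normSys_saturated hS hF hU
  obtain ⟨V, C, hC⟩ := exists_isComponentIn (hS.to_le hNS) hs h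
  have h1 := IsComp.centIn_of_normal (hS.to_le hNS) hC hs (normal_normSys hU.1)
  have h2 := isComponentIn_of_le (hS.to_le hNS) hC (centSys_isNormalIn_normSys hS hF hU)
    fun x hx => ⟨hNS (h1.le hx).1, (h1.le hx).2⟩
  have := finite_of_le hU.1
  obtain ⟨X, hXp, hXU, hXc⟩ : ∃ X : Subgroup Ω, Nat.card X = p ∧ X ≤ U ∧ U ≤ Subgroup.centralizer (X : Set Ω) := by
    have : Nontrivial U := (Subgroup.nontrivial_iff_ne_bot U).2 h0
    obtain ⟨n, hn0, hn⟩ := ((hS.to_le hU.1).to_subgroup (Subgroup.center U)).nontrivial_iff_card.1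
      (hS.to_le hU.1).center_nontrivial
    obtain ⟨z, hz⟩ := exists_prime_orderOf_dvd_card' (G := Subgroup.center U) p (hn ▸ dvd_pow_self p hn0.ne')
    refine ⟨Subgroup.zpowers ((z : U) : Ω), by rw [Nat.card_zpowers, Subgroup.orderOf_coe, Subgroup.orderOf_coe, hz],
      Subgroup.zpowers_le.2 z.1.2, fun u hu => Subgroup.le_centralizer_iff.1 (Subgroup.zpowers_le.2 ?_) hu⟩
    exact fun u hu => congrArg Subtype.val (Subgroup.mem_center_iff.1 z.2 ⟨u, hu⟩)
  obtain ⟨φ, hφ, k1⟩ := exists_mor_normalizer_fullyNormalized hS hF (hXU.trans hU.1)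
  have i1 : U ⊔ centralizerIn S U ≤ centralizerIn S X := sup_le (le_inf hU.1 hXc) (centralizerIn_anti S hXU)
  have i2 := i1.trans (centralizerIn_le_normalizerIn S X)
  have i3 : X ≤ normalizerIn S X := le_normalizerIn (hXU.trans hU.1)
  have m1 : ∀ x ∈ U ⊔ centralizerIn S U, φ x ∈ centralizerIn S (img φ X) := fun x hx =>
    hφ.map_mem_centralizerIn i3 (i2 hx) (i1 hx).2
  have hS' := centralizerIn_le S (img φ X)
  have := finite_of_le hS'
  have hF' := centSys_saturated hS hF (fullyCentralized_of_fullyNormalized hS hF k1)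
  have i4 : img φ U ≤ centralizerIn S (img φ X) := img_le_iff.2 fun x hx => m1 x (Subgroup.mem_sup_left hx)
  obtain ⟨ψ, hψ, k2⟩ := exists_mor_normalizer_fullyNormalized (hS.to_le hS') hF' i4
  have m2 : ∀ x ∈ U ⊔ centralizerIn S U, φ x ∈ normalizerIn (centralizerIn S (img φ X)) (img φ U) := fun x hx =>
    ⟨m1 x hx, hφ.map_mem_normalizer (le_sup_left.trans i2) (i2 hx)
      (sup_le (le_normalizerIn hU.1) (centralizerIn_le_normalizerIn S U) hx).2⟩
  obtain ⟨χ, k3⟩ := exists_corr_centSys_of_mor (fullyCentralized_of_fullyNormalized hS hF hU)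
    ((hψ.of_subsystem centSys_isSubsystemOf).comp (hφ.mono i2) m2)
  have := finite_of_le (centralizerIn_le S U)
  obtain ⟨C₁, -, k4⟩ := k3.exists_component h2
  have e : img (ψ ∘ φ) U = img ψ (img φ U) := (hφ.mono (le_sup_left.trans i2)).isHomOn.img_comp _
  have i5 : img φ X ≤ img ψ (img φ U) := fun x hx => by
    have h3 := img_mono φ hXU hx
    obtain ⟨-, g, -, l1, l2⟩ := mor_centSys.1 hψ
    rw [← l2 x hx, l1 (le_normalizerIn i4 h3)]
    exact mem_img_of_mem ψ h3
  generalize img ψ (img φ U) = U' at k2 e i5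
  subst e
  have := finite_of_le (centralizerIn_le S (img (ψ ∘ φ) U))
  obtain ⟨C₂, -, k5⟩ := (corr_centSys_centSys i5 k2.1).symm.exists_component k4
  have := finite_of_le ((normalizerIn_le _ (img (ψ ∘ φ) U)).trans hS')
  exact ⟨img φ X, (hφ.mono i3).card_img.trans hXp, k1, _, isCentralizerSystem_centSys F k1.1,
    exists_isComponentIn_of_normSys (hS.to_le hS') hF' k2
      (isComponentIn_of_isNormalIn k5 (centSys_isNormalIn_normSys (hS.to_le hS') hF' k2))⟩

end CL.Fus
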