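import Cfsg.Agent.FUS.PcCertHom
import Cfsg.Agent.FUS.SimpleQuot

/-! Simplicity certificates using the centralizer of the central involution of the Sylow subgroup. -/

set_option autoImplicit false

namespace CL.Pc
open CL.K CL.CG Subgroup

variable {G : Type*} [Group G] {φ : G → ℕ} {mul : ℕ → ℕ → ℕ} {one : ℕ}

/-- certificate: the elements of `M` normalize the group with polycyclic sequence `R` -/
noncomputable def normB (mul : ℕ → ℕ → ℕ) (R M : List ℕ) : Bool :=
  lall (fun s => lall (fun t => memE mul R s (mul t s)) R) M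

theorem mem_normalizer_of_normB [Finite G] (C : IsCode φ mul one) {R M : List ℕ} (hR : ∀ c ∈ R, Mem φ ⊤ c)
    (hM : ∀ c ∈ M, Mem φ ⊤ c) (h : normB mul R M = true) :
    ∀ c ∈ M, elt φ c ∈ normalizer (lgen (R.map (elt φ)) : Set G) := by
  intro c hc
  rw [← inv_mem_iff]
  refine CL.Fus.mem_normalizer_of_cj_mem fun y hy => ?_
  have := conj_mem_lgen (s := elt φ c) (fun t ht => ?_) hy
  · simpa [CL.Fus.cj] using this
  obtain ⟨d, hd, rfl⟩ := List.mem_map.1 ht
  have h1 := lall_iff.1 (lall_iff.1 h c hc) d hd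
  rw [← (hM c hc).code_elt, ← (hR d hd).code_elt, C.map_mul, memE_iff C hR] at h1
  obtain ⟨x, hx, e⟩ := h1
  exact ⟨x, mem_of_mem_nf (fun s hs => mem_lgen hs) hx, e⟩

/-- certificate: the group with sequence `R` contains its centralizer in the group with sequence `L` -/
noncomputable def selfB (mul : ℕ → ℕ → ℕ) (one : ℕ) (R L : List ℕ) : Bool :=
  allE mul (fun x => !(commB mul R x) || memE mul R one x) L one

theorem mem_of_selfB (C : IsCode φ mul one) {R L : List ℕ} (hR : ∀ c ∈ R, Mem φ ⊤ c) (hL : ∀ c ∈ L, Mem φ ⊤ c)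
    (hpc : PcSeq (L.map (elt φ))) (h : selfB mul one R L = true) {x : G} (hx : x ∈ lgen (L.map (elt φ)))
    (hc : ∀ y ∈ lgen (R.map (elt φ)), y * x = x * y) : x ∈ lgen (R.map (elt φ)) := by
  rw [selfB, ← C.map_one, allE_iff C hL] at h
  have := h x (hpc.mem_iff.1 hx)
  rw [one_mul] at this
  simp only [Bool.or_eq_true, Bool.not_eq_true'] at this
  rcases this with h1 | h1
  · have h2 : commB mul R (φ x) = true := lall_iff.2 fun c hc' => by
      rw [← (hR c hc').code_elt, C.map_mul, C.map_mul, hc _ (mem_lgen (List.mem_map_of_mem hc'))]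
      exact Nat.beq_refl _
    rw [h2] at h1
    exact absurd h1 (by decide)
  · obtain ⟨y, hy, e⟩ := (memE_iff C hR 1 x).1 h1
    rw [← e, one_mul]
    exact mem_of_mem_nf (fun s hs => mem_lgen hs) hy

/-- If the centre of the Sylow subgroup is generated by `z`, and `C(z)` is generated by `2`-elements normalizing
a self-centralizing subgroup, the absence of strongly closed subgroups gives simplicity. -/
theorem isSimple_of_cert_cent [Finite G] (C : IsCode φ mul one) {ok : ℕ → Bool} (hok : ∀ c, ok c = true → Mem φ ⊤ c)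
    {Hd R L : List ℕ} (hL : lall ok L = true) (e : Hd ++ R = L) {m : ℕ} (hm : Odd m)
    (hcard : Nat.card G = 2 ^ L.length * m) (hL0 : L ≠ []) (hpc : pcB mul one L = true) {z : ℕ}
    (hz0 : ok z = true) (hz : centB mul one z L L = true) {M : List ℕ} (hM : lall ok M = true)
    (hC : centralizer {elt φ z} ≤ gen φ M) (hn : normB mul R M = true)
    (h2 : lall (fun c => Nat.beq (powC mul one c 8) one) M = true) (hs : selfB mul one R L = true)
    {W : List (List ℕ)} {St : List (List ℕ × ℕ × List ℕ)} (hst : stepsB mul one ok L W St [z] = true)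
    (P : Sylow 2 G) : (Cfsg.groupFusionSystem (P : Subgroup G)).IsSimple 2 := by
  have hL : ∀ c ∈ L, Mem φ ⊤ c := fun c hc => hok c (lall_iff.1 hL c hc)
  have hM : ∀ c ∈ M, Mem φ ⊤ c := fun c hc => hok c (lall_iff.1 hM c hc)
  have hRL : ∀ c ∈ R, c ∈ L := fun c hc => e ▸ List.mem_append_right _ hc
  have hR : ∀ c ∈ R, Mem φ ⊤ c := fun c hc => hL c (hRL c hc)
  have hp := pcSeq_of_pcB C hL hpc
  have hS : CL.Fus.SylIn 2 (lgen (L.map (elt φ))) ⊤ :=
    CL.Fus.sylIn_top (Sylow.ofCard _ (card_eq_pow_factorization hp hm (by simpa using hcard)))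
  have hS1 := hp.ne_bot (by simpa using hL0)
  have hZ : ∀ x ∈ lgen (L.map (elt φ)), x ≠ 1 → (∀ s ∈ lgen (L.map (elt φ)), s * x = x * s) → x = elt φ z :=
    fun x hx hx1 hxc => by rw [← eq_of_centB C hL (fun _ h => h) hp hz hx hx1 hxc, C.elt_code]
  have hN : normalizer (lgen (L.map (elt φ)) : Set G) ≤ CL.Fus.Oupp 2 (normalizer (lgen (R.map (elt φ)) : Set G)) := by
    refine le_trans (fun g hg => mem_centralizer_singleton_iff.2 ?_) (hC.trans ((C.gen_le_iff hM).2 fun c hc => ?_))
    · exact mul_inv_eq_iff_eq_mul.1 (conj_eq_of_center hp.isPGroup hS1 hZ hg)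
    · refine CL.Fus.mem_Oupp (mem_normalizer_of_normB C hR hM hn c hc) (k := 3) ?_
      have := eq_of_beq (lall_iff.1 h2 c hc)
      rw [← (hM c hc).code_elt, C.powC_eq, ← C.map_one] at this
      exact C.inj this
  refine CL.Fus.isSimple_quot_of_local (MonoidHom.id G) Function.surjective_id hS (by simp) (by simpa using hS1)
    (fun T _ hTS hT1 hT => ?_) (fun g hg => subset_closure ⟨hg, lgen (R.map (elt φ)), ?_, ?_, ?_, hN hg⟩) P
  · obtain ⟨x, hx, hx1, hxc⟩ := exists_central hp.isPGroup hTS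
      (fun x hx s hs => hT x hx s (mul_mem (mul_mem hs (hTS hx)) (inv_mem hs))) (by simpa using hT1)
    refine le_of_stepsB C hok hL hT (fun c hc => ?_) hst
    rw [List.mem_singleton.1 hc]
    exact (hok z hz0).of_elt (hZ x (hTS hx) hx1 hxc ▸ hx)
  · exact lgen_le.2 fun s hs => by
      obtain ⟨c, hc, rfl⟩ := List.mem_map.1 hs
      exact mem_lgen (List.mem_map_of_mem (hRL c hc))
  · exact (le_normalizer.trans hN).trans (CL.Fus.Oupp_le _ _)
  · exact fun x hx hc => mem_of_selfB C hR hL hp hs hx hc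

end CL.Pc
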