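import Mathlib
import Cfsg.Agent.FUS.CSE
import Cfsg.Agent.FUS.GlaubZ
import Cfsg.Agent.FUS.CharAut
import Cfsg.Agent.FUS.GroupNormal

/-!
# At odd primes `C_S(T) = Z(T) C_S(E)` for a normal subsystem `E` over `T`
-/

set_option autoImplicit false

namespace CL.Fus
open Cfsg Cfsg.FusionSystem
open scoped commutatorElement

/-- Averaging over the cosets of a subgroup. -/
theorem exists_fixed_of_index {J : Type*} [Group J] {A B : Subgroup (MulAut J)} [Finite B]
    {N : Subgroup J} {x : J} (hx : x ∈ Subgroup.center J) (hA : ∀ α ∈ A, α x = x)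
    (hB : ∀ β ∈ B, x⁻¹ * β x ∈ N) :
    ∃ y, (∀ β ∈ B, β y = y) ∧ (x ^ A.relIndex B)⁻¹ * y ∈ N := by
  classical
  let _ : CommGroup (Subgroup.center J) := { (inferInstance : Group (Subgroup.center J)) with
    mul_comm := fun a b => Subtype.ext (Subgroup.mem_center_iff.1 b.2 a) }
  let _ := Fintype.ofFinite (B ⧸ A.subgroupOf B)
  let φ : B ⧸ A.subgroupOf B → Subgroup.center J := Quotient.lift
    (fun β : B => Subgroup.centerCongr β.1 ⟨x, hx⟩) fun a b h => Subtype.ext (by
      have := hA _ (QuotientGroup.leftRel_apply (s := A.subgroupOf B).1 h)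
      change a.1 x = b.1 x
      conv_lhs => rw [← this]
      simp)
  refine ⟨(∏ q, φ q : Subgroup.center J), fun β hβ => ?_, ?_⟩
  · change (Subgroup.centerCongr β (∏ q, φ q) : J) = _
    rw [map_prod]
    exact congrArg _ (Fintype.prod_equiv (MulAction.toPerm (⟨β, hβ⟩ : B)) _ _ fun q =>
      QuotientGroup.induction_on q fun a => rfl)
  · have : (∏ q, (⟨x, hx⟩⁻¹ * φ q)) ∈ N.subgroupOf (Subgroup.center J) :=
      Subgroup.prod_mem _ fun q _ => QuotientGroup.induction_on q fun a => hB a.1 a.2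
    rw [Finset.prod_mul_distrib, Finset.prod_const, Finset.card_univ, ← Nat.card_eq_fintype_card,
      inv_pow] at this
    exact this

variable {Ω : Type*} [Group Ω] {S T : Subgroup Ω} {F : FusionSystem S} {p : ℕ}

theorem commutator_sup_le_of_le_normalizer {A : Subgroup Ω} (hA : A ≤ Subgroup.normalizer (T : Set Ω))
    (h : ⁅A, A⁆ ≤ T) : ⁅T ⊔ A, T ⊔ A⁆ ≤ T := by
  refine Subgroup.commutator_le.2 fun a ha b hb => ?_
  obtain ⟨t, ht, c, hc, rfl⟩ := exists_mul_of_mem_sup_right hA ha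
  obtain ⟨u, hu, d, hd, rfl⟩ := exists_mul_of_mem_sup_right hA hb
  have e : ⁅t * c, u * d⁆ = t * cj c u * ⁅c, d⁆ * cj d t⁻¹ * u⁻¹ := by
    simp only [commutatorElement_def, cj_apply]; group
  rw [e]
  exact T.mul_mem (T.mul_mem (T.mul_mem (T.mul_mem ht (cj_mem_of_mem_normalizer (hA hc) hu))
    (h (Subgroup.commutator_mem_commutator hc hd))) (cj_mem_of_mem_normalizer (hA hd) (T.inv_mem ht)))
    (T.inv_mem hu)

variable [Finite S] [Fact p.Prime]

/-- For odd `p`, `Z(S) ≤ Z(F) foc(F)`. -/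
theorem exists_mem_center_mod_focal (hp : p ≠ 2) (hS : IsPGroup p S) (hF : F.IsSaturated p) {x : Ω}
    (hx : x ∈ centralizerIn S S) :
    ∃ y ∈ F.center, ∃ n : ℕ, ¬ p ∣ n ∧ (x ^ n)⁻¹ * y ∈ F.focalSubgroup := by
  have hJ := ThA.thompsonSubgroupAOf_le S
  have hn : S ≤ Subgroup.normalizer (thompsonSubgroupAOf S : Set Ω) :=
    Subgroup.le_normalizer.trans (ThA.normalizer_le_normalizer_thompsonSubgroupAOf S)
  have hxJ := centralizerIn_thompson_le S (centralizerIn_anti S hJ hx)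
  have := finite_mulAut hJ
  have hsyl := sylIn_of_fullyNormalized hS hF (fullyNormalized_of_normal F hJ hn)
  obtain ⟨y, h1, h2⟩ := exists_fixed_of_index (A := autInducedBy S (thompsonSubgroupAOf S))
    (B := F.autGroup _) (N := F.focalSubgroup.subgroupOf _) (x := ⟨x, hxJ⟩)
    (Subgroup.mem_center_iff.2 fun a => Subtype.ext (hx.2 a (hJ a.2)))
    (fun α hα => by
      obtain ⟨s, hs, e⟩ := Grp.mem_autInducedBy.1 hα
      exact Subtype.ext ((e _).trans (cj_eq_self_iff.2 (hx.2 s hs))))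
    (fun β hβ => by
      have := (mor_autFun hJ hβ).mem_focal hxJ
      rwa [autFun_of_mem β hxJ] at this)
  refine ⟨y, mem_center_of_fix_thompson hS hF (Or.inl hp) ⟨hJ y.2, fun s hs => ?_⟩ ?_, _,
    hsyl.not_dvd_relIndex, h2⟩
  · exact cj_eq_self_iff.1 (congrArg Subtype.val (h1 _ (hsyl.le (cjAut_mem_autInducedBy hs (hn hs)))))
  · rintro P f ⟨-, g, hg, e, h⟩ hP
    rw [← e hP]
    exact congrArg Subtype.val (h1 _ ((hg.mono le_sup_right).equiv_mem_autGroup h))

variable (hS : IsPGroup p S) {E : FusionSystem T} (hE : E.IsNormalIn F p)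
include hS hE

theorem commutator_centralizerIn_le_cS : ⁅centralizerIn S T, centralizerIn S T⁆ ≤ cS F p E :=
  (commutator_le_focal _).trans (focal_centSys_le_cS hS hE)

theorem commutator_sup_centralizerIn_le (h : cS F p E ≤ T) :
    ⁅T ⊔ centralizerIn S T, T ⊔ centralizerIn S T⁆ ≤ T :=
  commutator_sup_le_of_le_normalizer ((centralizerIn_le_normalizerIn S T).trans inf_le_right)
    ((commutator_centralizerIn_le_cS hS hE).trans h)

/-- For odd `p`, `C_S(T) ≤ T C_S(E)`. -/
theorem centralizerIn_le_sup_cS (hp : p ≠ 2) : centralizerIn S T ≤ T ⊔ cS F p E := by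
  intro x hx
  have hT := hE.1.2.2.2.1
  have hR : T ⊔ Subgroup.zpowers x ≤ S := sup_le hT.1 (Subgroup.zpowers_le.2 hx.1)
  have := finite_of_le hR
  have hD := mulSys_saturated hS hE hR le_sup_left
  have hxc : T ⊔ Subgroup.zpowers x ≤ Subgroup.centralizer {x} :=
    sup_le (fun t ht => Subgroup.mem_centralizer_singleton_iff.2 (hx.2 t ht))
      (Subgroup.zpowers_le.2 (Subgroup.mem_centralizer_singleton_iff.2 rfl))
  obtain ⟨y, hy, n, hn, h⟩ := exists_mem_center_mod_focal hp (isPGroup_of_le hS hR) hD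
    (x := x) ⟨Subgroup.mem_sup_right (Subgroup.mem_zpowers x),
      fun a ha => Subgroup.mem_centralizer_singleton_iff.1 (hxc ha)⟩
  rw [focal_eq_hyperfocal_sup (isPGroup_of_le hS hR) hD] at h
  have h1 : (x ^ n)⁻¹ * y ∈ T := (sup_le (hyperfocal_mulSys_le hS hE hR) ?_ : _ ≤ T) h
  · have hc := isCentral_iff_le_center.2 (Subgroup.zpowers_le.2 hy)
    have h2 : Subgroup.zpowers y ≤ cS F p E := le_cS hS hE (Subgroup.zpowers_le.2
      ⟨hR (center_le _ hy), fun t ht => center_le_centralizer _ hy t (Subgroup.mem_sup_left ht)⟩)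
      fun P f hf => by
        obtain ⟨h1, g, hg, h2⟩ := (isCentral_iff_cMor.1 hc).2 P f
          (hf.of_subsystem (isSubsystemOf_mulSys hS hE hR le_sup_left))
        exact ⟨fun a ha => ⟨hR (h1 ha).1, (h1 ha).2⟩, g,
          hg.of_subsystem (mulSys_isSubsystemOf hS hE hR), h2⟩
    obtain ⟨k, hk⟩ := IsPGroup.iff_orderOf.1 hS ⟨x, hx.1⟩
    refine mem_of_pow_mem_of_coprime_orderOf (m := n) ?_ ?_
    · rw [← Subgroup.orderOf_mk x hx.1, hk]
      exact ((Nat.Prime.coprime_iff_not_dvd Fact.out).2 hn).pow_left k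
    · have := Subgroup.mul_mem _ (Subgroup.mem_sup_left (T := cS F p E) h1)
        (Subgroup.inv_mem _ (Subgroup.mem_sup_right (h2 (Subgroup.mem_zpowers y))))
      rwa [mul_inv_cancel_right, inv_mem_iff] at this
  · refine commutator_sup_le_of_le_normalizer (Subgroup.zpowers_le.2 (sc_le_normalizer hT hx.1)) ?_
    rw [Subgroup.commutator_eq_bot_iff_le_centralizer.2 (Subgroup.le_centralizer _)]
    exact bot_le

end CL.Fus
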